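import Mathlib
import Cfsg.Agent.Lib.Helper38.Alt3.Defs

/-!
# S2929 package [J] (helper24): a transitive group generated by `3`-cycles is the alternating group
-/

set_option autoImplicit false

namespace Cfsg.Agent.Lib.Helper24.Alt3

open Cfsg.Agent.Lib.Helper38.Alt3

open scoped Pointwise

theorem lemJ : Cfsg.Agent.Lib.Helper38.Alt3.LemJ := by
  intro α _ _ T hT htrans
  classical
  have hKle : Subgroup.closure T ≤ alternatingGroup α := by
    rw [Subgroup.closure_le]
    intro t ht
    exact (hT t ht).mem_alternatingGroup
  apply le_antisymm hKle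
  by_cases hTe : T = ∅
  · have hsub : ∀ x y : α, x = y := by
      intro x y
      obtain ⟨g, hg, hgx⟩ := htrans x y
      rw [hTe, Subgroup.closure_empty, Subgroup.mem_bot] at hg
      rw [hg] at hgx
      exact hgx
    intro g _
    have h1 : g = 1 := by
      ext x
      exact hsub _ _
    rw [h1]
    exact Subgroup.one_mem _
  · obtain ⟨t0, ht0⟩ := Set.nonempty_iff_ne_empty.mpr hTe
    have hprim : MulAction.IsPreprimitive ↥(Subgroup.closure T) α := by
      haveI : MulAction.IsPretransitive ↥(Subgroup.closure T) α := by
        refine ⟨fun x y => ?_⟩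
        obtain ⟨g, hg, hgx⟩ := htrans x y
        exact ⟨⟨g, hg⟩, hgx⟩
      refine ⟨fun {B} hB => ?_⟩
      by_cases hBs : B.Subsingleton
      · exact Or.inl hBs
      · right
        rw [Set.not_subsingleton_iff] at hBs
        obtain ⟨a, ha, b, hb, hab⟩ := hBs
        have hinv : ∀ t ∈ T, t ∈ MulAction.stabilizer (Equiv.Perm α) B := by
          intro t ht
          rw [MulAction.mem_stabilizer_iff]
          rcases hB.smul_eq_or_disjoint ⟨t, Subgroup.subset_closure ht⟩ with h | h
          · exact h
          · exfalso
            have hdis : ∀ x ∈ B, ∀ y ∈ B, t x ≠ y := by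
              intro x hx y hy hxy
              have h1 : y ∈ (⟨t, Subgroup.subset_closure ht⟩ : ↥(Subgroup.closure T)) • B := by
                rw [Set.mem_smul_set]
                exact ⟨x, hx, hxy⟩
              exact Set.disjoint_left.mp h h1 hy
            have hmoved : ∀ x ∈ B, t x ≠ x := fun x hx => hdis x hx x hx
            obtain ⟨i, hi⟩ := (hT t ht).isCycle.exists_pow_eq (hmoved a ha) (hmoved b hb)
            have h3 : orderOf t = 3 := (hT t ht).orderOf
            rw [← pow_mod_orderOf, h3] at hi
            have hi3 : i % 3 < 3 := Nat.mod_lt _ (by norm_num)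
            have ht3 : t ^ 3 = 1 := by rw [← h3]; exact pow_orderOf_eq_one t
            interval_cases (i % 3)
            · exact hab (by simpa using hi)
            · exact hdis a ha b hb (by simpa using hi)
            · apply hdis b hb a ha
              rw [← hi, ← Equiv.Perm.mul_apply, ← pow_succ', ht3]
              rfl
        have hK : Subgroup.closure T ≤ MulAction.stabilizer (Equiv.Perm α) B := by
          rw [Subgroup.closure_le]
          exact hinv
        apply Set.eq_univ_of_forall
        intro y
        obtain ⟨g, hg, hgy⟩ := htrans a y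
        have h1 : g • B = B := MulAction.mem_stabilizer_iff.mp (hK hg)
        rw [← h1, ← hgy]
        exact Set.smul_mem_smul_set ha
    exact Equiv.Perm.alternatingGroup_le_of_isPreprimitive_of_isThreeCycle_mem hprim (hT t0 ht0)
      (Subgroup.subset_closure ht0)

end Cfsg.Agent.Lib.Helper24.Alt3
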