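import Mathlib
import Cfsg.Agent.Lib.Helper38.Alt3.Defs

/-!
# S2929 package [S] (helper24): a group containing a Sylow `3`-subgroup of `Sym(n)` has `3`-cycles
moving at least `n - 2` points
-/

set_option autoImplicit false

namespace Cfsg.Agent.Lib.Helper24.Alt3

open Cfsg.Agent.Lib.Helper38.Alt3

open scoped Pointwise

theorem lemS : Cfsg.Agent.Lib.Helper38.Alt3.LemS := by
  intro n H ⟨P, hPH⟩
  classical
  by_cases hn : n = 0
  · subst hn
    exact ⟨∅, by simp, by simp⟩
  have hn0 : 0 < n := Nat.pos_of_ne_zero hn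
  haveI : Fact (Nat.Prime 3) := ⟨Nat.prime_three⟩
  obtain ⟨k, hk⟩ : ∃ k, k = n / 3 := ⟨_, rfl⟩
  have hkn : 3 * k ≤ n := by rw [hk]; exact Nat.mul_div_le n 3
  have hkn2 : n - 2 ≤ 3 * k := by omega
  obtain ⟨pt, hpt⟩ : ∃ pt : ℕ → Fin n, ∀ m, m < n → (pt m).val = m :=
    ⟨fun m => ⟨m % n, Nat.mod_lt _ hn0⟩, fun m hm => Nat.mod_eq_of_lt hm⟩
  have hptne : ∀ m m', m < n → m' < n → m ≠ m' → pt m ≠ pt m' := by
    intro m m' hm hm' hne h
    have h1 := congrArg Fin.val h
    rw [hpt m hm, hpt m' hm'] at h1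
    exact hne h1
  have hpteq : ∀ (x : Fin n) m, m < n → x.val = m → x = pt m := by
    intro x m hm hx
    apply Fin.ext
    rw [hpt m hm, hx]
  obtain ⟨c, hc⟩ : ∃ c : ℕ → Equiv.Perm (Fin n), ∀ i, c i =
      Equiv.swap (pt (3 * i)) (pt (3 * i + 1)) * Equiv.swap (pt (3 * i)) (pt (3 * i + 2)) :=
    ⟨fun i => Equiv.swap (pt (3 * i)) (pt (3 * i + 1)) *
      Equiv.swap (pt (3 * i)) (pt (3 * i + 2)), fun i => rfl⟩
  have hc3 : ∀ i, i < k → (c i).IsThreeCycle := by
    intro i hi
    rw [hc]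
    exact Equiv.Perm.isThreeCycle_swap_mul_swap_same
      (hptne _ _ (by omega) (by omega) (by omega))
      (hptne _ _ (by omega) (by omega) (by omega))
      (hptne _ _ (by omega) (by omega) (by omega))
  have hcfix : ∀ i, i < k → ∀ x : Fin n, x.val / 3 ≠ i → c i x = x := by
    intro i hi x hx
    have h1 : x ≠ pt (3 * i) := by
      intro h; apply hx; rw [h, hpt _ (by omega)]; omega
    have h2 : x ≠ pt (3 * i + 1) := by
      intro h; apply hx; rw [h, hpt _ (by omega)]; omega
    have h3 : x ≠ pt (3 * i + 2) := by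
      intro h; apply hx; rw [h, hpt _ (by omega)]; omega
    rw [hc, Equiv.Perm.mul_apply, Equiv.swap_apply_of_ne_of_ne h1 h3,
      Equiv.swap_apply_of_ne_of_ne h1 h2]
  have hcmove : ∀ i, i < k → ∀ x : Fin n, x.val / 3 = i → c i x ≠ x := by
    intro i hi x hx
    have hab : pt (3 * i) ≠ pt (3 * i + 1) := hptne _ _ (by omega) (by omega) (by omega)
    have had : pt (3 * i) ≠ pt (3 * i + 2) := hptne _ _ (by omega) (by omega) (by omega)
    have hbd : pt (3 * i + 1) ≠ pt (3 * i + 2) := hptne _ _ (by omega) (by omega) (by omega)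
    rw [hc, Equiv.Perm.mul_apply]
    rcases (by omega : x.val = 3 * i ∨ x.val = 3 * i + 1 ∨ x.val = 3 * i + 2) with h | h | h
    · have hx0 : x = pt (3 * i) := hpteq x _ (by omega) h
      rw [hx0, Equiv.swap_apply_left, Equiv.swap_apply_of_ne_of_ne had.symm hbd.symm]
      exact had.symm
    · have hx1 : x = pt (3 * i + 1) := hpteq x _ (by omega) h
      rw [hx1, Equiv.swap_apply_of_ne_of_ne hab.symm hbd, Equiv.swap_apply_right]
      exact hab
    · have hx2 : x = pt (3 * i + 2) := hpteq x _ (by omega) h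
      rw [hx2, Equiv.swap_apply_right, Equiv.swap_apply_left]
      exact hbd
  obtain ⟨T0, hT0⟩ : ∃ T0 : Set (Equiv.Perm (Fin n)), T0 = {g | ∃ i, i < k ∧ g = c i} :=
    ⟨_, rfl⟩
  have hcomm : ∀ x ∈ T0, ∀ y ∈ T0, x * y = y * x := by
    rw [hT0]
    rintro x ⟨i, hi, rfl⟩ y ⟨j, hj, rfl⟩
    by_cases hij : i = j
    · rw [hij]
    · have hd : Equiv.Perm.Disjoint (c i) (c j) := by
        intro x
        by_cases hx : x.val / 3 = i
        · right; exact hcfix j hj x (by rw [hx]; exact hij)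
        · left; exact hcfix i hi x hx
      exact hd.commute.eq
  have hQcomm : ∀ x ∈ Subgroup.closure T0, ∀ y ∈ Subgroup.closure T0, x * y = y * x :=
    fun x hx y hy => Set.centralizer_centralizer_comm_of_comm hcomm x
      (Subgroup.closure_le_centralizer_centralizer T0 hx) y
      (Subgroup.closure_le_centralizer_centralizer T0 hy)
  have hQ3 : ∀ x ∈ Subgroup.closure T0, x ^ 3 = 1 := by
    intro x hx
    induction hx using Subgroup.closure_induction with
    | mem x hx =>
      rw [hT0] at hx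
      obtain ⟨i, hi, rfl⟩ := hx
      rw [← (hc3 i hi).orderOf]
      exact pow_orderOf_eq_one _
    | one => exact one_pow 3
    | mul x y hx hy ihx ihy =>
      rw [(show Commute x y from hQcomm x hx y hy).mul_pow, ihx, ihy, one_mul]
    | inv x hx ihx => rw [inv_pow, ihx, inv_one]
  have hQp : IsPGroup 3 ↥(Subgroup.closure T0) := by
    intro g
    refine ⟨1, ?_⟩
    apply Subtype.ext
    rw [pow_one, Subgroup.coe_pow]
    exact hQ3 g.1 g.2
  obtain ⟨P0, hP0⟩ := hQp.exists_le_sylow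
  obtain ⟨g, hg⟩ := MulAction.exists_smul_eq (Equiv.Perm (Fin n)) P0 P
  have hconj : ∀ i, i < k → g * c i * g⁻¹ ∈ H := by
    intro i hi
    apply hPH
    have h1 : c i ∈ (P0 : Subgroup (Equiv.Perm (Fin n))) :=
      hP0 (Subgroup.subset_closure (by rw [hT0]; exact ⟨i, hi, rfl⟩))
    have h2 : MulAut.conj g • c i ∈ MulAut.conj g • (P0 : Subgroup (Equiv.Perm (Fin n))) :=
      Subgroup.smul_mem_pointwise_smul _ _ _ h1
    rw [← Sylow.coe_subgroup_smul, hg] at h2
    exact h2
  refine ⟨Finset.univ.image (fun j : Fin (3 * k) => g (Fin.castLE hkn j)), ?_, ?_⟩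
  · have hinj : Function.Injective (fun j : Fin (3 * k) => g (Fin.castLE hkn j)) :=
      g.injective.comp (Fin.castLE_injective hkn)
    rw [Finset.card_image_of_injective _ hinj, Finset.card_univ, Fintype.card_fin]
    exact hkn2
  · intro x hx
    obtain ⟨j, -, rfl⟩ := Finset.mem_image.mp hx
    have hyv : (Fin.castLE hkn j).val < 3 * k := j.2
    have hi : (Fin.castLE hkn j).val / 3 < k := by omega
    refine ⟨g * c ((Fin.castLE hkn j).val / 3) * g⁻¹, hconj _ hi, ?_, ?_⟩
    · unfold Equiv.Perm.IsThreeCycle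
      rw [Equiv.Perm.cycleType_conj]
      exact hc3 _ hi
    · rw [Equiv.Perm.mul_apply, Equiv.Perm.mul_apply]
      intro h
      have h' : g⁻¹ (g (Fin.castLE hkn j)) = Fin.castLE hkn j := by simp
      rw [h'] at h
      exact hcmove _ hi (Fin.castLE hkn j) rfl (g.injective h)

end Cfsg.Agent.Lib.Helper24.Alt3
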